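import Mathlib

/-! Carmichael's presentation of the alternating groups. -/

set_option autoImplicit false

namespace Cfsg.Agent.Lib.Carmichael

section bound

variable {G : Type*} [Group G] (x : ℕ → G)

/-- The relations on the first `m` elements. -/
structure Rel (m : ℕ) : Prop where
  cube : 0 < m → x 0 ^ 3 = 1
  sq : ∀ i, 1 ≤ i → i < m → x i ^ 2 = 1
  braid : ∀ i, i + 1 < m → (x i * x (i + 1)) ^ 3 = 1
  comm : ∀ i j, i + 1 < j → j < m → (x i * x j) ^ 2 = 1

variable {x}

theorem Rel.mono {m : ℕ} (h : Rel x (m + 1)) : Rel x m where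
  cube := fun hm => h.cube (by omega)
  sq := fun i hi him => h.sq i hi (by omega)
  braid := fun i hi => h.braid i (by omega)
  comm := fun i j hij hj => h.comm i j hij (by omega)

variable {m : ℕ} (h : Rel x (m + 1))
include h

theorem Rel.inv_eq {i : ℕ} (hi : 1 ≤ i) (him : i ≤ m) : (x i)⁻¹ = x i :=
  inv_eq_of_mul_eq_one_right (by rw [← pow_two, h.sq i hi (by omega)])

theorem Rel.commute {i j : ℕ} (hi : 1 ≤ i) (hij : i + 1 < j) (hj : j ≤ m) : Commute (x i) (x j) := by
  have h2 : (x i * x j)⁻¹ = x i * x j :=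
    inv_eq_of_mul_eq_one_right (by rw [← pow_two, h.comm i j hij (by omega)])
  rw [mul_inv_rev, h.inv_eq hi (by omega), h.inv_eq (by omega) hj] at h2
  exact h2.symm

theorem Rel.commute' {i j : ℕ} (hi : 1 ≤ i) (hj : 1 ≤ j) (him : i ≤ m) (hjm : j ≤ m)
    (hij : i + 1 < j ∨ j + 1 < i) : Commute (x i) (x j) := by
  rcases hij with hij | hij
  · exact h.commute hi hij hjm
  · exact (h.commute hj hij him).symm

theorem Rel.braid' {i : ℕ} (hi : 1 ≤ i) (him : i + 1 ≤ m) :
    x (i + 1) * x i * x (i + 1) = x i * x (i + 1) * x i := by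
  have h3 := h.braid i (by omega)
  rw [pow_succ, pow_two] at h3
  have h4 : (x i * x (i + 1) * x i) * (x (i + 1) * x i * x (i + 1)) = 1 := by rw [← h3]; group
  have h5 := inv_eq_of_mul_eq_one_right h4
  rw [mul_inv_rev, mul_inv_rev, h.inv_eq hi (by omega), h.inv_eq (by omega) him, ← mul_assoc] at h5
  exact h5.symm

theorem Rel.flip_zero {j : ℕ} (hj : 2 ≤ j) (hjm : j ≤ m) : x j * x 0 = (x 0)⁻¹ * x j := by
  have h2 := h.comm 0 j (by omega) (by omega)
  rw [pow_two] at h2
  have : x j * x 0 * x j = (x 0)⁻¹ := eq_inv_of_mul_eq_one_right (by rw [← h2]; group)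
  rw [← this, mul_assoc, ← pow_two, h.sq j (by omega) (by omega), mul_one]

theorem Rel.zero_flip {j : ℕ} (hj : 2 ≤ j) (hjm : j ≤ m) (e : ℤ) : x j * x 0 ^ e = x 0 ^ (-e) * x j := by
  have h1 : SemiconjBy (x j) (x 0) (x 0)⁻¹ := h.flip_zero hj hjm
  rw [(h1.zpow_right e).eq, inv_zpow, zpow_neg]

theorem Rel.middle (hm : 1 ≤ m) : x 1 * x 0 * x 1 = (x 0)⁻¹ * x 1 * (x 0)⁻¹ ∧
    x 1 * (x 0)⁻¹ * x 1 = x 0 * x 1 * x 0 := by
  have h3 := h.braid 0 (by omega)
  rw [pow_succ, pow_two] at h3
  have h4 : (x 0 * x 1 * x 0) * (x 1 * x 0 * x 1) = 1 := by rw [← h3]; group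
  have h5 := inv_eq_of_mul_eq_one_right h4
  rw [mul_inv_rev, mul_inv_rev, h.inv_eq le_rfl hm, ← mul_assoc] at h5
  refine ⟨h5.symm, ?_⟩
  have h6 := congrArg (·⁻¹) h5
  simp only [mul_inv_rev, inv_inv, h.inv_eq le_rfl hm, ← mul_assoc] at h6
  exact h6.symm

omit h in
/-- The descending products. -/
def desc (x : ℕ → G) (m : ℕ) : ℕ → G
  | 0 => 1
  | d + 1 => desc x m d * x (m - d)

theorem Rel.desc_commute : ∀ d, d ≤ m → ∀ j, 1 ≤ j → j + 1 < m + 1 - d →
    Commute (desc x m d) (x j) := by
  intro d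
  induction d with
  | zero => intro _ j _ _; exact Commute.one_left _
  | succ d ih =>
    intro hd j hj1 hj
    exact (ih (by omega) j hj1 (by omega)).mul_left (h.commute' (by omega) hj1 (by omega) (by omega) (by omega))

theorem Rel.desc_zero : ∀ d, d < m → ∀ e : ℤ, ∃ e' : ℤ, desc x m d * x 0 ^ e = x 0 ^ e' * desc x m d := by
  intro d
  induction d with
  | zero => intro _ e; exact ⟨e, by simp [desc]⟩
  | succ d ih =>
    intro hd e
    obtain ⟨e', he⟩ := ih (by omega) (-e)
    refine ⟨e', ?_⟩
    rw [desc, mul_assoc, h.zero_flip (by omega) (by omega), ← mul_assoc, he, mul_assoc]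

theorem Rel.desc_shift : ∀ d, d ≤ m → ∀ j, m + 1 - d < j → j ≤ m →
    desc x m d * x j = x (j - 1) * desc x m d := by
  intro d
  induction d with
  | zero => intro _ j hj hjm; omega
  | succ d ih =>
    intro hd j hj hjm
    rcases Nat.lt_or_ge (m + 1 - d) j with hlt | hge
    · rw [desc, mul_assoc, (h.commute' (i := m - d) (j := j) (by omega) (by omega) (by omega) hjm (by omega)).eq,
        ← mul_assoc, ih (by omega) j hlt hjm, mul_assoc]
    · obtain ⟨d', rfl⟩ : ∃ d', d = d' + 1 := ⟨d - 1, by omega⟩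
      obtain rfl : j = m - d' := by omega
      have hk : m - (d' + 1) + 1 = m - d' := by omega
      have hb := h.braid' (i := m - (d' + 1)) (by omega) (by omega)
      rw [hk] at hb
      rw [desc, desc, show m - d' - 1 = m - (d' + 1) by omega]
      calc desc x m d' * x (m - d') * x (m - (d' + 1)) * x (m - d')
          = desc x m d' * (x (m - d') * x (m - (d' + 1)) * x (m - d')) := by group
        _ = desc x m d' * (x (m - (d' + 1)) * x (m - d') * x (m - (d' + 1))) := by rw [hb]
        _ = (desc x m d' * x (m - (d' + 1))) * x (m - d') * x (m - (d' + 1)) := by group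
        _ = _ := by
          rw [(h.desc_commute d' (by omega) (m - (d' + 1)) (by omega) (by omega)).eq]
          group

omit h in
theorem exists_cover {G : Type*} [Group G] : ∀ {x : ℕ → G} (m : ℕ), Rel x m →
    ∃ T : Finset G, 2 * T.card ≤ (m + 2).factorial ∧
      (Subgroup.closure (x '' Set.Iio m) : Set G) ⊆ T := by
  classical
  intro x m
  induction m with
  | zero =>
    intro _
    refine ⟨{1}, by simp, ?_⟩
    simp
  | succ m ih =>
    intro h
    obtain ⟨T, hT, hHT⟩ := ih h.mono
    set H := Subgroup.closure (x '' Set.Iio m) with hH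
    let R : Finset G := (Finset.range (m + 1)).image (desc x m) ∪ {desc x m m * x 0, desc x m m * (x 0)⁻¹}
    have hxH : ∀ j, j < m → x j ∈ H := fun j hj => Subgroup.subset_closure ⟨j, hj, rfl⟩
    have hRd : ∀ d, d ≤ m → desc x m d ∈ R := fun d hd =>
      Finset.mem_union_left _ (Finset.mem_image.mpr ⟨d, Finset.mem_range.mpr (by omega), rfl⟩)
    have hR1 : desc x m m * x 0 ∈ R := Finset.mem_union_right _ (by simp)
    have hR0 : desc x m m * (x 0)⁻¹ ∈ R := Finset.mem_union_right _ (by simp)
    have hx3 := h.cube (by omega)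
    have hinv0 : (x 0)⁻¹ = x 0 * x 0 := inv_eq_of_mul_eq_one_right (by rw [← hx3, pow_succ', pow_two])
    -- right multiplication by a generator
    have hstep : ∀ j, j ≤ m → ∀ r ∈ R, ∃ a ∈ H, ∃ r' ∈ R, r * x j = a * r' := by
      intro j hj r hr
      simp only [R, Finset.mem_union, Finset.mem_image, Finset.mem_range, Finset.mem_insert,
        Finset.mem_singleton] at hr
      rcases hr with ⟨d, hd, rfl⟩ | rfl | rfl
      · rcases Nat.eq_zero_or_pos j with rfl | hj1
        · rcases Nat.lt_or_ge d m with hdm | hdm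
          · obtain ⟨e', he⟩ := h.desc_zero d hdm 1
            rw [zpow_one] at he
            exact ⟨_, zpow_mem (hxH 0 (by omega)) e', _, hRd d (by omega), he⟩
          · obtain rfl : d = m := by omega
            exact ⟨1, one_mem _, _, hR1, by rw [one_mul]⟩
        · rcases lt_trichotomy j (m - d) with hlt | heq | hgt
          · exact ⟨x j, hxH j (by omega), _, hRd d (by omega), (h.desc_commute d (by omega) j hj1 (by omega)).eq⟩
          · exact ⟨1, one_mem _, _, hRd (d + 1) (by omega), by rw [one_mul, desc, heq]⟩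
          · rcases Nat.lt_or_ge (m + 1 - d) j with hlt | hge
            · exact ⟨x (j - 1), hxH _ (by omega), _, hRd d (by omega), h.desc_shift d (by omega) j hlt hj⟩
            · obtain ⟨d', rfl⟩ : ∃ d', d = d' + 1 := ⟨d - 1, by omega⟩
              refine ⟨1, one_mem _, _, hRd d' (by omega), ?_⟩
              rw [one_mul, desc, show m - d' = j by omega, mul_assoc, ← pow_two, h.sq j hj1 (by omega), mul_one]
      · rcases Nat.eq_zero_or_pos j with rfl | hj1
        · exact ⟨1, one_mem _, _, hR0, by rw [one_mul, mul_assoc, hinv0]⟩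
        rcases Nat.lt_or_ge 1 j with hj2 | hj2
        · refine ⟨x (j - 1), hxH _ (by omega), _, hR0, ?_⟩
          have hf := h.zero_flip hj2 hj (-1)
          rw [neg_neg, zpow_one, zpow_neg_one] at hf
          rw [mul_assoc, ← hf, ← mul_assoc, h.desc_shift m le_rfl j (by omega) hj, mul_assoc]
        · obtain rfl : j = 1 := by omega
          obtain ⟨d', rfl⟩ : ∃ d', m = d' + 1 := ⟨m - 1, by omega⟩
          obtain ⟨e', he⟩ := h.desc_zero d' (by omega) (-1)
          rw [zpow_neg_one] at he
          refine ⟨x 0 ^ e', zpow_mem (hxH 0 (by omega)) e', _, hR0, ?_⟩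
          simp only [desc, show d' + 1 - d' = 1 by omega]
          calc desc x (d' + 1) d' * x 1 * x 0 * x 1
              = desc x (d' + 1) d' * (x 1 * x 0 * x 1) := by group
            _ = desc x (d' + 1) d' * (x 0)⁻¹ * x 1 * (x 0)⁻¹ := by rw [(h.middle (by omega)).1]; group
            _ = _ := by rw [he]; group
      · rcases Nat.eq_zero_or_pos j with rfl | hj1
        · exact ⟨1, one_mem _, _, hRd m le_rfl, by rw [one_mul, inv_mul_cancel_right]⟩
        rcases Nat.lt_or_ge 1 j with hj2 | hj2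
        · refine ⟨x (j - 1), hxH _ (by omega), _, hR1, ?_⟩
          rw [mul_assoc, ← h.flip_zero hj2 hj, ← mul_assoc, h.desc_shift m le_rfl j (by omega) hj, mul_assoc]
        · obtain rfl : j = 1 := by omega
          obtain ⟨d', rfl⟩ : ∃ d', m = d' + 1 := ⟨m - 1, by omega⟩
          obtain ⟨e', he⟩ := h.desc_zero d' (by omega) 1
          rw [zpow_one] at he
          refine ⟨x 0 ^ e', zpow_mem (hxH 0 (by omega)) e', _, hR1, ?_⟩
          simp only [desc, show d' + 1 - d' = 1 by omega]
          calc desc x (d' + 1) d' * x 1 * (x 0)⁻¹ * x 1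
              = desc x (d' + 1) d' * (x 1 * (x 0)⁻¹ * x 1) := by group
            _ = desc x (d' + 1) d' * x 0 * x 1 * x 0 := by rw [(h.middle (by omega)).2]; group
            _ = _ := by rw [he]; group
    have hclo : ∀ g ∈ Subgroup.closure (x '' Set.Iio (m + 1)), ∃ a ∈ H, ∃ r ∈ R, g = a * r := by
      intro g hg
      induction hg using Subgroup.closure_induction_right with
      | one => exact ⟨1, one_mem _, desc x m 0, hRd 0 (by omega), by simp [desc]⟩
      | mul_right g hg y hy ih =>
        obtain ⟨a, ha, r, hr, rfl⟩ := ih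
        obtain ⟨j, hj, rfl⟩ := hy
        obtain ⟨b, hb, r', hr', he⟩ := hstep j (Nat.lt_succ_iff.mp hj) r hr
        exact ⟨a * b, mul_mem ha hb, r', hr', by rw [mul_assoc, he, mul_assoc]⟩
      | mul_inv_cancel g hg y hy ih =>
        obtain ⟨a, ha, r, hr, rfl⟩ := ih
        obtain ⟨j, hj, rfl⟩ := hy
        have hj' : j ≤ m := Nat.lt_succ_iff.mp hj
        rcases Nat.eq_zero_or_pos j with rfl | hj1
        · obtain ⟨b, hb, r1, hr1, he⟩ := hstep 0 hj' r hr
          obtain ⟨c, hc, r2, hr2, he2⟩ := hstep 0 hj' r1 hr1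
          refine ⟨a * b * c, mul_mem (mul_mem ha hb) hc, r2, hr2, ?_⟩
          rw [hinv0, mul_assoc (a * b) c r2, ← he2, mul_assoc a b, ← mul_assoc b, ← he]
          group
        · obtain ⟨b, hb, r', hr', he⟩ := hstep j hj' r hr
          exact ⟨a * b, mul_mem ha hb, r', hr', by rw [h.inv_eq hj1 hj', mul_assoc, he, mul_assoc]⟩
    refine ⟨(T ×ˢ R).image (fun p => p.1 * p.2), ?_, fun g hg => ?_⟩
    · have hR : R.card ≤ m + 3 := by
        refine (Finset.card_union_le _ _).trans ?_
        have h1 := Finset.card_image_le (s := Finset.range (m + 1)) (f := desc x m)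
        have h2 := Finset.card_le_two (a := desc x m m * x 0) (b := desc x m m * (x 0)⁻¹)
        rw [Finset.card_range] at h1
        omega
      refine le_trans (Nat.mul_le_mul_left 2 (Finset.card_image_le.trans (Finset.card_product T R).le)) ?_
      rw [show m + 1 + 2 = (m + 2) + 1 by omega, Nat.factorial_succ]
      calc 2 * (T.card * R.card) = (2 * T.card) * R.card := by ring
        _ ≤ (m + 2).factorial * (m + 3) := Nat.mul_le_mul hT hR
        _ = (m + 2 + 1) * (m + 2).factorial := by ring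
    · obtain ⟨a, ha, r, hr, rfl⟩ := hclo g hg
      rw [Finset.mem_coe, Finset.mem_image]
      exact ⟨(a, r), Finset.mem_product.mpr ⟨Finset.mem_coe.mp (hHT ha), hr⟩, rfl⟩

end bound

end Cfsg.Agent.Lib.Carmichael
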